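import Cfsg.Agent.H643.Sd.Basic
import Mathlib.GroupTheory.Index
import Mathlib.GroupTheory.PGroup

/-!
# S4579, task FR-0: the abstract frame lemma

`Y` finite, `T ≤ H ≤ Y`, `T` normalised by `H`, `H / T` a `2`-group (in the applications: `T` a maximal torus, `H ≤ N`
the preimage of a Sylow `2`-subgroup of the stabiliser of a frame), `N₁` normalised by `H` (in the applications the
product of commuting `SL₂(q)`'s), `N₁ ⊔ H` of odd index.

* `Kil G u` : `u` is in all Sylow `2`-subgroups of `G`, and in the kernel of their linear characters;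
* `lin_of_frame` : a linear character of a Sylow `2`-subgroup `Q` with `f ^ 2 = 1` on `Q ∩ T` has `f ^ 2 = 1`;
* `exists_sylow_of_frame`, `of_frame` : the version for every Sylow `2`-subgroup.
-/

set_option autoImplicit false
set_option linter.unusedSectionVars false
set_option linter.unusedVariables false

namespace Cfsg.Agent.H584.Fr

open Cfsg.Agent.H643.Sd

/-- `u` lies in every Sylow `2`-subgroup of `G` and in the kernel of each of its linear characters. -/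
def Kil (G : Type*) [Group G] (u : G) : Prop :=
  ∀ P : Sylow 2 G, ∀ f : (P : Subgroup G) →* ℂˣ, ∃ h : u ∈ (P : Subgroup G), f ⟨u, h⟩ = 1

section Aux

variable {G : Type*} [Group G] [Finite G]

theorem odd_iff_not_two_dvd {n : ℕ} : Odd n ↔ ¬ 2 ∣ n := by
  rw [← Nat.not_even_iff_odd, even_iff_two_dvd]

/-- `Q ∩ A` is a Sylow `2`-subgroup of the normal subgroup `A`. -/
theorem odd_relIndex_inf (Q : Subgroup G) (hQ : Odd Q.index) (A : Subgroup G) [A.Normal] :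
    Odd ((Q ⊓ A).relIndex A) := by
  have h1 : (Q ⊓ A).relIndex Q * Q.relIndex (Q ⊔ A) = (Q ⊓ A).relIndex (Q ⊔ A) :=
    Subgroup.relIndex_mul_relIndex _ _ _ inf_le_left le_sup_left
  have h2 : (Q ⊓ A).relIndex A * A.relIndex (Q ⊔ A) = (Q ⊓ A).relIndex (Q ⊔ A) :=
    Subgroup.relIndex_mul_relIndex _ _ _ inf_le_right le_sup_right
  rw [Subgroup.relIndex_sup_right] at h2
  have h3 : (Q ⊓ A).relIndex Q = A.relIndex Q := by
    rw [inf_comm, Subgroup.inf_relIndex_right]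
  rw [h3] at h1
  have h4 : A.relIndex Q ≠ 0 := by
    have : 0 < Nat.card Q := Nat.card_pos
    intro h0
    have := Subgroup.relIndex_dvd_card A Q
    rw [h0, zero_dvd_iff] at this
    omega
  have h5 : (Q ⊓ A).relIndex A = Q.relIndex (Q ⊔ A) := by
    apply Nat.eq_of_mul_eq_mul_right (Nat.pos_of_ne_zero h4)
    rw [h2, ← h1, mul_comm]
  rw [h5]
  exact Odd.of_dvd_nat hQ (Subgroup.relIndex_dvd_index_of_le le_sup_left)

/-- A `2`-subgroup of odd index of `A` is a Sylow `2`-subgroup of `A`. -/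
theorem exists_sylow {P A : Subgroup G} (hP : IsPGroup 2 P) (hodd : Odd (P.relIndex A)) :
    ∃ S : Sylow 2 A, (S : Subgroup A) = P.subgroupOf A := by
  have h1 : IsPGroup 2 (P.subgroupOf A) := by
    have := hP.comap_of_injective A.subtype (Subgroup.subtype_injective A)
    exact this
  have h2 : ¬ 2 ∣ (P.subgroupOf A).index := odd_iff_not_two_dvd.1 hodd
  exact ⟨h1.toSylow h2, rfl⟩

/-- If `A / T` is a `2`-group and `R` has odd index in `A`, then `A = R T`. -/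
theorem exists_mul {T H R : Subgroup G} (hTH : T ≤ H) (hRH : R ≤ H) (hTn : ∀ h ∈ H, ∀ t ∈ T, h * t * h⁻¹ ∈ T)
    (h2 : ∃ a, T.relIndex H = 2 ^ a) (hR : Odd (R.relIndex H)) {x : G} (hx : x ∈ H) :
    ∃ r ∈ R, ∃ t ∈ T, x = r * t := by
  obtain ⟨a, ha⟩ := h2
  have h1 : (R ⊔ T).relIndex H ∣ 2 ^ a := by
    rw [← ha]; exact Subgroup.relIndex_dvd_of_le_left H le_sup_right
  have h3 : Odd ((R ⊔ T).relIndex H) := Odd.of_dvd_nat hR (Subgroup.relIndex_dvd_of_le_left H le_sup_left)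
  have h4 : (R ⊔ T).relIndex H = 1 := by
    obtain ⟨b, -, hb⟩ := (Nat.dvd_prime_pow Nat.prime_two).1 h1
    rw [hb] at h3 ⊢
    rcases Nat.eq_zero_or_pos b with rfl | hb0
    · rfl
    · exfalso
      rw [← Nat.not_even_iff_odd] at h3
      exact h3 ((Nat.even_pow.2 ⟨even_two, hb0.ne'⟩))
  have h5 : x ∈ R ⊔ T := Subgroup.relIndex_eq_one.1 h4 hx
  let K : Subgroup G :=
    { carrier := {x | ∃ r ∈ R, ∃ t ∈ T, x = r * t}
      mul_mem' := by
        rintro _ _ ⟨r, hr, t, ht, rfl⟩ ⟨r', hr', t', ht', rfl⟩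
        refine ⟨r * r', mul_mem hr hr', (r'⁻¹ * t * r') * t', mul_mem ?_ ht', by group⟩
        have := hTn r'⁻¹ (inv_mem (hRH hr')) t ht
        rwa [inv_inv] at this
      one_mem' := ⟨1, one_mem _, 1, one_mem _, by simp⟩
      inv_mem' := by
        rintro _ ⟨r, hr, t, ht, rfl⟩
        refine ⟨r⁻¹, inv_mem hr, r * t⁻¹ * r⁻¹, hTn r (hRH hr) _ (inv_mem ht), by group⟩ }
  have h6 : R ⊔ T ≤ K := sup_le (fun r hr => ⟨r, hr, 1, one_mem _, by simp⟩)
    (fun t ht => ⟨1, one_mem _, t, ht, by simp⟩)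
  exact h6 h5

/-- A `2`-element of `H` has a `T`-conjugate in the Sylow `2`-subgroup `R` of `H = R T`. -/
theorem exists_conj {T H R : Subgroup G} (hTH : T ≤ H) (hRH : R ≤ H) (hTn : ∀ h ∈ H, ∀ t ∈ T, h * t * h⁻¹ ∈ T)
    (h2 : ∃ a, T.relIndex H = 2 ^ a) (hR2 : IsPGroup 2 R) (hR : Odd (R.relIndex H)) {e : G} (he : e ∈ H) {k : ℕ}
    (hk : e ^ 2 ^ k = 1) : ∃ t ∈ T, t * e * t⁻¹ ∈ R := by
  obtain ⟨S, hS⟩ := exists_sylow (A := H) hR2 hR
  have h3 : IsPGroup 2 (Subgroup.zpowers (⟨e, he⟩ : H)) := by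
    have h0 : (⟨e, he⟩ : H) ^ 2 ^ k = 1 := Subtype.ext (by simpa using hk)
    rintro ⟨y, hy⟩
    obtain ⟨j, rfl⟩ := Subgroup.mem_zpowers_iff.1 hy
    refine ⟨k, Subtype.ext ?_⟩
    rw [SubmonoidClass.mk_pow, Subgroup.coe_one]
    show ((⟨e, he⟩ : H) ^ j) ^ 2 ^ k = 1
    rw [← zpow_natCast, ← zpow_mul, mul_comm, zpow_mul, zpow_natCast, h0, one_zpow]
  obtain ⟨P, hP⟩ := h3.exists_le_sylow
  obtain ⟨g, hg⟩ := MulAction.exists_smul_eq H P S
  have h4 : g * ⟨e, he⟩ * g⁻¹ ∈ (S : Subgroup H) := by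
    rw [← hg, Sylow.smul_def, Sylow.pointwise_smul_def]
    exact Subgroup.smul_mem_pointwise_smul _ (MulAut.conj g) _ (hP (Subgroup.mem_zpowers _))
  rw [hS, Subgroup.mem_subgroupOf] at h4
  obtain ⟨r, hr, t, ht, h5⟩ := exists_mul hTH hRH hTn h2 hR g.2
  refine ⟨t, ht, ?_⟩
  have h6 : t * e * t⁻¹ = r⁻¹ * ((g : G) * e * (g : G)⁻¹) * r := by rw [h5]; group
  rw [h6]
  exact mul_mem (mul_mem (inv_mem hr) h4) hr

end Aux

/-- **The frame lemma**, ambient version. -/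
theorem lin_of_frame_top {G : Type*} [Group G] [Finite G] {T H N₁ U : Subgroup G} (E : Set G) [N₁.Normal]
    (htop : N₁ ⊔ H = ⊤) (hTH : T ≤ H) (hTn : ∀ h ∈ H, ∀ t ∈ T, h * t * h⁻¹ ∈ T) (h2 : ∃ a, T.relIndex H = 2 ^ a)
    (hN : Elem N₁) (hU : ∀ u ∈ U, ∃ h : u ∈ N₁, Kil N₁ ⟨u, h⟩) (hUT : ∀ t ∈ T, ∀ u ∈ U, t * u = u * t)
    (hE : ∀ e ∈ E, e ∈ H ∧ (∃ k, e ^ 2 ^ k = 1) ∧ (e ^ 2 ∈ U ∨ e ∈ N₁)) (hgen : H ≤ T ⊔ Subgroup.closure E)
    {Q : Subgroup G} (hQ2 : IsPGroup 2 Q) (hQ : Odd Q.index) (hR : Odd ((Q ⊓ H).relIndex H))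
    (f : Q →* ℂˣ) (hf : ∀ x (hx : x ∈ Q), x ∈ T → f ⟨x, hx⟩ ^ 2 = 1) (x : Q) : f x ^ 2 = 1 := by
  -- `f ^ 2 = 1` on `Q ∩ N₁`
  have hP : Odd ((Q ⊓ N₁).relIndex N₁) := odd_relIndex_inf Q hQ N₁
  obtain ⟨S, hS⟩ := exists_sylow (A := N₁) (hQ2.to_le inf_le_left : IsPGroup 2 (Q ⊓ N₁ : Subgroup G)) hP
  have hSQ : ∀ y : (S : Subgroup N₁), ((y : N₁) : G) ∈ Q := by
    intro y
    have h3 : (y : N₁) ∈ (Q ⊓ N₁).subgroupOf N₁ := hS ▸ y.2
    exact (Subgroup.mem_subgroupOf.1 h3).1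
  let j : (S : Subgroup N₁) →* Q :=
    { toFun := fun y => ⟨((y : N₁) : G), hSQ y⟩
      map_one' := rfl
      map_mul' := fun _ _ => rfl }
  have hfN : ∀ x (hx : x ∈ Q), x ∈ N₁ → f ⟨x, hx⟩ ^ 2 = 1 := by
    intro x hx hxN
    have hxS : (⟨x, hxN⟩ : N₁) ∈ (S : Subgroup N₁) := by
      rw [hS, Subgroup.mem_subgroupOf]; exact ⟨hx, hxN⟩
    exact hN S (f.comp j) ⟨⟨x, hxN⟩, hxS⟩
  -- `f = 1` on `U`
  have hfU : ∀ u ∈ U, ∃ h : u ∈ Q, f ⟨u, h⟩ = 1 := by
    intro u hu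
    obtain ⟨h, hk⟩ := hU u hu
    obtain ⟨h', hk'⟩ := hk S (f.comp j)
    exact ⟨hSQ ⟨_, h'⟩, hk'⟩
  have hR2 : IsPGroup 2 (Q ⊓ H : Subgroup G) := hQ2.to_le inf_le_left
  -- the elements with `f ^ 2 = 1`
  let R0 : Subgroup G :=
    { carrier := {x | x ∈ H ∧ ∃ h : x ∈ Q, f ⟨x, h⟩ ^ 2 = 1}
      mul_mem' := by
        rintro a b ⟨ha, ha', ha''⟩ ⟨hb, hb', hb''⟩
        refine ⟨mul_mem ha hb, mul_mem ha' hb', ?_⟩
        have : (⟨a * b, mul_mem ha' hb'⟩ : Q) = ⟨a, ha'⟩ * ⟨b, hb'⟩ := rfl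
        rw [this, map_mul, mul_pow, ha'', hb'', mul_one]
      one_mem' := ⟨one_mem _, one_mem _, by
        have : (⟨1, one_mem Q⟩ : Q) = 1 := rfl
        rw [this, map_one, one_pow]⟩
      inv_mem' := by
        rintro a ⟨ha, ha', ha''⟩
        refine ⟨inv_mem ha, inv_mem ha', ?_⟩
        have : (⟨a⁻¹, inv_mem ha'⟩ : Q) = (⟨a, ha'⟩)⁻¹ := rfl
        rw [this, map_inv, inv_pow, ha'', inv_one] }
  let H0 : Subgroup G :=
    { carrier := {x | ∃ r ∈ R0, ∃ t ∈ T, x = r * t}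
      mul_mem' := by
        rintro _ _ ⟨r, hr, t, ht, rfl⟩ ⟨r', hr', t', ht', rfl⟩
        refine ⟨r * r', mul_mem hr hr', (r'⁻¹ * t * r') * t', mul_mem ?_ ht', by group⟩
        have := hTn r'⁻¹ (inv_mem hr'.1) t ht
        rwa [inv_inv] at this
      one_mem' := ⟨1, one_mem _, 1, one_mem _, by simp⟩
      inv_mem' := by
        rintro _ ⟨r, hr, t, ht, rfl⟩
        refine ⟨r⁻¹, inv_mem hr, r * t⁻¹ * r⁻¹, hTn r hr.1 _ (inv_mem ht), by group⟩ }
  have hTH0 : T ≤ H0 := fun t ht => ⟨1, one_mem _, t, ht, by simp⟩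
  have hEH0 : E ⊆ (H0 : Set G) := by
    intro e he
    obtain ⟨heH, ⟨k, hk⟩, hor⟩ := hE e he
    obtain ⟨t, ht, hte⟩ := exists_conj hTH inf_le_right hTn h2 hR2 hR heH hk
    have hr : t * e * t⁻¹ ∈ R0 := by
      refine ⟨hte.2, hte.1, ?_⟩
      rcases hor with h | h
      · obtain ⟨h', hk'⟩ := hfU _ h
        have e1 : (⟨t * e * t⁻¹, hte.1⟩ : Q) ^ 2 = ⟨e ^ 2, h'⟩ := by
          apply Subtype.ext
          show (t * e * t⁻¹) ^ 2 = e ^ 2
          have := hUT t ht _ h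
          calc (t * e * t⁻¹) ^ 2 = t * e ^ 2 * t⁻¹ := by rw [pow_two, pow_two]; group
            _ = e ^ 2 := by rw [this]; group
        rw [← map_pow, e1, hk']
      · exact hfN _ _ (Subgroup.Normal.conj_mem inferInstance e h t)
    have e2 : e = (t * e * t⁻¹) * (t * (e⁻¹ * t⁻¹ * e)⁻¹⁻¹) := by group
    refine ⟨_, hr, _, mul_mem ht ?_, e2⟩
    rw [inv_inv]
    have := hTn e⁻¹ (inv_mem heH) t⁻¹ (inv_mem ht)
    rwa [inv_inv] at this
  have hHH0 : H ≤ H0 := le_trans hgen (sup_le hTH0 ((Subgroup.closure_le _).2 hEH0))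
  have hfR : ∀ x (hx : x ∈ Q), x ∈ H → f ⟨x, hx⟩ ^ 2 = 1 := by
    intro x hx hxH
    obtain ⟨r, hr, t, ht, rfl⟩ := hHH0 hxH
    obtain ⟨hrH, hrQ, hrf⟩ := hr
    have htQ : t ∈ Q := by
      have := mul_mem (inv_mem hrQ) hx
      rwa [inv_mul_cancel_left] at this
    have : (⟨r * t, hx⟩ : Q) = ⟨r, hrQ⟩ * ⟨t, htQ⟩ := rfl
    rw [this, map_mul, mul_pow, hrf, hf t htQ ht, mul_one]
  -- `Q ≤ (Q ∩ H) N₁`
  let π := QuotientGroup.mk' N₁
  have hπH : H.map π = ⊤ := by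
    have h3 : (N₁ ⊔ H).map π = ⊤ := by
      rw [htop, ← MonoidHom.range_eq_map]
      exact MonoidHom.range_eq_top.2 (QuotientGroup.mk'_surjective N₁)
    rw [Subgroup.map_sup] at h3
    have h4 : N₁.map π = ⊥ := by
      rw [Subgroup.map_eq_bot_iff, QuotientGroup.ker_mk']
    rwa [h4, bot_sup_eq] at h3
  have h5 : Odd ((Q ⊓ H).map π).index := by
    have hs : Function.Surjective (π.comp H.subtype) := by
      rw [← MonoidHom.range_eq_top, MonoidHom.range_comp, Subgroup.range_subtype]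
      exact hπH
    have h3 := Subgroup.index_map_dvd (((Q ⊓ H).subgroupOf H)) hs
    rw [← Subgroup.map_map, Subgroup.subgroupOf_map_subtype, inf_of_le_left inf_le_right] at h3
    exact Odd.of_dvd_nat hR h3
  have h6 : (Q ⊓ H).map π = Q.map π := by
    apply le_antisymm (Subgroup.map_mono inf_le_left)
    rw [← Subgroup.relIndex_eq_one]
    have h3 : Odd (((Q ⊓ H).map π).relIndex (Q.map π)) :=
      Odd.of_dvd_nat h5 (Subgroup.relIndex_dvd_index_of_le (Subgroup.map_mono inf_le_left))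
    obtain ⟨n, hn⟩ := IsPGroup.iff_card.1 (hQ2.map π)
    have h4 : ((Q ⊓ H).map π).relIndex (Q.map π) ∣ 2 ^ n := by
      rw [← hn]; exact Subgroup.relIndex_dvd_card _ _
    obtain ⟨b, -, hb⟩ := (Nat.dvd_prime_pow Nat.prime_two).1 h4
    rw [hb] at h3 ⊢
    rcases Nat.eq_zero_or_pos b with rfl | hb0
    · rfl
    · exfalso
      rw [← Nat.not_even_iff_odd] at h3
      exact h3 ((Nat.even_pow.2 ⟨even_two, hb0.ne'⟩))
  obtain ⟨x, hx⟩ := x
  have h7 : π x ∈ (Q ⊓ H).map π := by rw [h6]; exact ⟨x, hx, rfl⟩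
  obtain ⟨r, hr, hrx⟩ := h7
  have h8 : r⁻¹ * x ∈ N₁ := by
    have : π r = π x := hrx
    exact QuotientGroup.eq.1 this
  have h9 : r⁻¹ * x ∈ Q := mul_mem (inv_mem hr.1) hx
  have : (⟨x, hx⟩ : Q) = ⟨r, hr.1⟩ * ⟨r⁻¹ * x, h9⟩ := Subtype.ext (by simp)
  rw [this, map_mul, mul_pow, hfR r hr.1 hr.2, hfN _ h9 h8, mul_one]

/-! ### Sylow subgroups of `H` and of `N₁ H` -/

section Sub

variable {Y : Type*} [Group Y] [Finite Y]

theorem odd_relIndex_of_le {A B C : Subgroup Y} (hAB : A ≤ B) (h : Odd (A.relIndex C)) : Odd (B.relIndex C) :=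
  Odd.of_dvd_nat h (Subgroup.relIndex_dvd_of_le_left C hAB)

/-- A Sylow `2`-subgroup of `N₁ ⊔ H` containing a Sylow `2`-subgroup of `H`. -/
theorem exists_sylow_of_le {H M : Subgroup Y} (hHM : H ≤ M) (hM : Odd M.index) :
    ∃ Q : Sylow 2 Y, (Q : Subgroup Y) ≤ M ∧ Odd (((Q : Subgroup Y) ⊓ H).relIndex H) := by
  obtain ⟨R⟩ : Nonempty (Sylow 2 H) := inferInstance
  have hR2 : IsPGroup 2 ((R : Subgroup H).map H.subtype) := R.2.map _
  have hRM : (R : Subgroup H).map H.subtype ≤ M := le_trans (Subgroup.map_subtype_le _) hHM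
  have h1 : IsPGroup 2 (((R : Subgroup H).map H.subtype).subgroupOf M) :=
    hR2.comap_of_injective M.subtype (Subgroup.subtype_injective M)
  obtain ⟨P, hP⟩ := h1.exists_le_sylow
  have hP2 : IsPGroup 2 ((P : Subgroup M).map M.subtype) := P.2.map _
  have hPi : ¬ 2 ∣ ((P : Subgroup M).map M.subtype).index := by
    rw [Subgroup.index_map_subtype]
    exact Nat.prime_two.not_dvd_mul P.not_dvd_index (odd_iff_not_two_dvd.1 hM)
  refine ⟨hP2.toSylow hPi, Subgroup.map_subtype_le _, ?_⟩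
  have h2 : (R : Subgroup H).map H.subtype ≤ ((P : Subgroup M).map M.subtype) ⊓ H := by
    refine le_inf ?_ (Subgroup.map_subtype_le _)
    intro x hx
    exact ⟨⟨x, hRM hx⟩, hP (Subgroup.mem_subgroupOf.2 hx), rfl⟩
  refine odd_relIndex_of_le h2 ?_
  have h3 : ((R : Subgroup H).map H.subtype).relIndex H = (R : Subgroup H).index := by
    rw [Subgroup.relIndex, Subgroup.subgroupOf, Subgroup.comap_map_eq_self_of_injective H.subtype_injective]
  rw [h3]
  exact odd_iff_not_two_dvd.2 R.not_dvd_index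

end Sub

/-! ### The frame lemma -/

/-- `u` is central and a product of commutators of a `2`-subgroup. -/
def Cen2 (G : Type*) [Group G] (u : G) : Prop :=
  u ∈ Subgroup.center G ∧ ∃ P : Subgroup G, IsPGroup 2 P ∧ u ∈ ⁅P, P⁆

theorem Cen2.kil {G : Type*} [Group G] [Finite G] {u : G} (h : Cen2 G u) : Kil G u := by
  obtain ⟨hc, P, hP, hu⟩ := h
  obtain ⟨S, hS⟩ := hP.exists_le_sylow
  intro Q f
  obtain ⟨g, rfl⟩ := MulAction.exists_smul_eq G S Q
  have h1 : u ∈ ⁅((g • S : Sylow 2 G) : Subgroup G), ((g • S : Sylow 2 G) : Subgroup G)⁆ := by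
    have h2 : MulAut.conj g u = u := by
      rw [MulAut.conj_apply, Subgroup.mem_center_iff.1 hc g, mul_inv_cancel_right]
    have h3 : MulAut.conj g u ∈ (⁅P, P⁆).map (MulAut.conj g).toMonoidHom := ⟨u, hu, rfl⟩
    rw [h2, Subgroup.map_commutator] at h3
    refine Subgroup.commutator_mono ?_ ?_ h3 <;>
    · rintro _ ⟨x, hx, rfl⟩
      rw [Sylow.smul_def, Sylow.pointwise_smul_def]
      exact Subgroup.smul_mem_pointwise_smul _ (MulAut.conj g) _ (hS hx)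
  have h4 : u ∈ ((g • S : Sylow 2 G) : Subgroup G) := Subgroup.commutator_le_self _ h1
  refine ⟨h4, sq_of_comm ?_⟩
  exact mem_comm_of_subtype.2 h1

theorem Kil.isTwoElement {G : Type*} [Group G] [Finite G] {u : G} (h : Kil G u) : ∃ k, u ^ 2 ^ k = 1 := by
  obtain ⟨P⟩ : Nonempty (Sylow 2 G) := inferInstance
  obtain ⟨h1, -⟩ := h P 1
  obtain ⟨k, hk⟩ := P.2 ⟨u, h1⟩
  exact ⟨k, congrArg Subtype.val hk⟩

/-- The subgroup of the elements with `Kil`. -/
def kilSub (G : Type*) [Group G] : Subgroup G where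
  carrier := {u | Kil G u}
  mul_mem' := by
    intro a b ha hb P f
    obtain ⟨h1, h2⟩ := ha P f
    obtain ⟨h3, h4⟩ := hb P f
    refine ⟨mul_mem h1 h3, ?_⟩
    have : (⟨a * b, mul_mem h1 h3⟩ : (P : Subgroup G)) = ⟨a, h1⟩ * ⟨b, h3⟩ := rfl
    rw [this, map_mul, h2, h4, mul_one]
  one_mem' := by
    intro P f
    refine ⟨one_mem _, ?_⟩
    have : (⟨1, one_mem _⟩ : (P : Subgroup G)) = 1 := rfl
    rw [this, map_one]
  inv_mem' := by
    intro a ha P f
    obtain ⟨h1, h2⟩ := ha P f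
    refine ⟨inv_mem h1, ?_⟩
    have : (⟨a⁻¹, inv_mem h1⟩ : (P : Subgroup G)) = (⟨a, h1⟩)⁻¹ := rfl
    rw [this, map_inv, h2, inv_one]

/-- **The frame lemma**: `N₁ ⊔ H` of odd index, `Q ≤ N₁ ⊔ H` a Sylow `2`-subgroup of `Y` such that `Q ∩ H` is a Sylow
`2`-subgroup of `H`. -/
theorem lin_of_frame {Y : Type*} [Group Y] [Finite Y] {T H N₁ U : Subgroup Y} (E : Set Y)
    (hHN : ∀ h ∈ H, ∀ x ∈ N₁, h * x * h⁻¹ ∈ N₁)
    (hTH : T ≤ H) (hTn : ∀ h ∈ H, ∀ t ∈ T, h * t * h⁻¹ ∈ T) (h2 : ∃ a, T.relIndex H = 2 ^ a)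
    (hN : Elem N₁) (hU : ∀ u ∈ U, ∃ h : u ∈ N₁, Kil N₁ ⟨u, h⟩) (hUT : ∀ t ∈ T, ∀ u ∈ U, t * u = u * t)
    (hE : ∀ e ∈ E, e ∈ H ∧ (e ^ 2 ∈ U ∨ e ∈ N₁ ∧ ∃ k, e ^ 2 ^ k = 1)) (hgen : H ≤ T ⊔ Subgroup.closure E)
    {Q : Subgroup Y} (hQ2 : IsPGroup 2 Q) (hQM : Q ≤ N₁ ⊔ H) (hQ : Odd (Q.relIndex (N₁ ⊔ H)))
    (hR : Odd ((Q ⊓ H).relIndex H))
    (f : Q →* ℂˣ) (hf : ∀ x (hx : x ∈ Q), x ∈ T → f ⟨x, hx⟩ ^ 2 = 1) (x : Q) : f x ^ 2 = 1 := by
  set M : Subgroup Y := N₁ ⊔ H with hM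
  have hNM : N₁ ≤ M := le_sup_left
  have hHM : H ≤ M := le_sup_right
  have hnorm : ∀ m ∈ M, ∀ x ∈ N₁, m * x * m⁻¹ ∈ N₁ := by
    have h3 : M ≤ Subgroup.normalizer (N₁ : Set Y) := by
      refine sup_le Subgroup.le_normalizer ?_
      intro h hh
      rw [Subgroup.mem_normalizer_iff]
      refine fun y => ⟨fun hy => hHN h hh y hy, fun hy => ?_⟩
      have := hHN h⁻¹ (inv_mem hh) _ hy
      rwa [inv_inv, show h⁻¹ * (h * y * h⁻¹) * h = y by group] at this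
    intro m hm y hy
    exact (Subgroup.mem_normalizer_iff.1 (h3 hm) y).1 hy
  have : (N₁.subgroupOf M).Normal := ⟨fun y hy g => by
    rw [Subgroup.mem_subgroupOf] at hy ⊢
    exact hnorm g g.2 y hy⟩
  have e1 : ∀ A ≤ M, ∀ B ≤ M, (A.subgroupOf M).relIndex (B.subgroupOf M) = A.relIndex B := fun A _ B hB =>
    Subgroup.relIndex_subgroupOf hB
  -- the element of order a power of two
  have hUk : ∀ u ∈ U, ∃ k, u ^ 2 ^ k = 1 := by
    intro u hu
    obtain ⟨h, hk⟩ := hU u hu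
    obtain ⟨k, hk⟩ := hk.isTwoElement
    exact ⟨k, congrArg Subtype.val hk⟩
  let eN : N₁ ≃* (N₁.subgroupOf M) := (Subgroup.subgroupOfEquivOfLe hNM).symm
  let eQ : (Q.subgroupOf M) ≃* Q := Subgroup.subgroupOfEquivOfLe hQM
  have hkil : ∀ u (h : u ∈ N₁), Kil N₁ ⟨u, h⟩ → Kil (N₁.subgroupOf M) (eN ⟨u, h⟩) := by
    intro u h hk P g
    obtain ⟨h5, h6⟩ := hk ((P.comapOfInjective eN.toMonoidHom eN.injective (by
      rw [MonoidHom.range_eq_top.2 eN.surjective]; exact le_top))) (g.comp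
        { toFun := fun y => ⟨eN y, y.2⟩
          map_one' := Subtype.ext (map_one eN)
          map_mul' := fun a b => Subtype.ext (map_mul eN _ _) })
    exact ⟨h5, h6⟩
  have key := lin_of_frame_top (G := M) (T := T.subgroupOf M) (H := H.subgroupOf M) (N₁ := N₁.subgroupOf M)
    (U := U.subgroupOf M) ((↑) ⁻¹' E : Set M) (by
      rw [← Subgroup.subgroupOf_sup hNM hHM, ← hM, Subgroup.subgroupOf_self])
    (Subgroup.comap_mono hTH)
    (fun h hh t ht => hTn h hh t ht)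
    (by rw [e1 _ (hTH.trans hHM) _ hHM]; exact h2)
    (hN.congr eN)
    (by
      intro u hu
      obtain ⟨h, hk⟩ := hU u hu
      exact ⟨h, hkil _ h hk⟩)
    (fun t ht u hu => Subtype.ext (hUT t ht u hu))
    (by
      intro e he
      obtain ⟨h3, h4⟩ := hE e he
      refine ⟨h3, ?_, ?_⟩
      · rcases h4 with h4 | ⟨-, k, hk⟩
        · obtain ⟨k, hk⟩ := hUk _ h4
          refine ⟨k + 1, Subtype.ext ?_⟩
          show (e : Y) ^ 2 ^ (k + 1) = 1
          rw [pow_succ', pow_mul, hk]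
        · exact ⟨k, Subtype.ext hk⟩
      · rcases h4 with h4 | ⟨h4, -⟩
        · exact Or.inl h4
        · exact Or.inr h4)
    (by
      intro h hh
      have h3 : (h : Y) ∈ T ⊔ Subgroup.closure E := hgen hh
      have h4 : T ⊔ Subgroup.closure E ≤ (T.subgroupOf M ⊔ Subgroup.closure ((↑) ⁻¹' E : Set M)).map M.subtype := by
        refine sup_le ?_ ((Subgroup.closure_le _).2 ?_)
        · intro t ht
          exact ⟨⟨t, (hTH.trans hHM) ht⟩, Subgroup.mem_sup_left ht, rfl⟩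
        · intro e he
          exact ⟨⟨e, hHM (hE e he).1⟩, Subgroup.mem_sup_right (Subgroup.subset_closure he), rfl⟩
      obtain ⟨y, hy, hyh⟩ := h4 h3
      have : y = h := Subtype.ext hyh
      rwa [← this])
    (Q := Q.subgroupOf M) (hQ2.comap_of_injective M.subtype (Subgroup.subtype_injective M)) hQ
    (by
      have h3 : Q.subgroupOf M ⊓ H.subgroupOf M = (Q ⊓ H).subgroupOf M := (Subgroup.comap_inf Q H M.subtype).symm
      rw [h3, e1 _ (inf_le_left.trans hQM) _ hHM]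
      exact hR)
    (f.comp eQ.toMonoidHom)
    (fun y hy hyT => hf y hy hyT)
    (eQ.symm x)
  rw [MonoidHom.comp_apply] at key
  have e2 : eQ.toMonoidHom (eQ.symm x) = x := eQ.apply_symm_apply x
  rwa [e2] at key

/-! ### Frames given by homomorphisms -/

section Homs

variable {Y : Type*} [Group Y] [Finite Y] {ι : Type*} [Finite ι] {G : ι → Type*} [∀ i, Group (G i)]
  [∀ i, Finite (G i)]

/-- `Elem` of a finite product. -/
theorem elem_pi (h : ∀ i, Elem (G i)) : Elem (∀ i, G i) := by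
  classical
  have := Fintype.ofFinite ι
  let P : ∀ i, Sylow 2 (G i) := fun i => Classical.choice inferInstance
  let S : Subgroup (∀ i, G i) := Subgroup.pi Set.univ fun i => (P i : Subgroup (G i))
  have hS : IsPGroup 2 S := by
    rw [IsPGroup.iff_card]
    have h1 : Nat.card S = ∏ i, Nat.card (P i : Subgroup (G i)) := by
      rw [← Nat.card_pi]
      exact Nat.card_congr
        { toFun := fun x i => ⟨x.1 i, x.2 i (Set.mem_univ i)⟩
          invFun := fun x => ⟨fun i => x i, fun i _ => (x i).2⟩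
          left_inv := fun _ => rfl
          right_inv := fun _ => rfl }
    choose n hn using fun i => IsPGroup.iff_card.1 (P i).2
    refine ⟨∑ i, n i, ?_⟩
    rw [h1, ← Finset.prod_pow_eq_pow_sum]
    exact Finset.prod_congr rfl fun i _ => hn i
  have hc : Nat.card (∀ i, G i) = Nat.card S * ∏ i, (P i : Subgroup (G i)).index := by
    have h1 : Nat.card S = ∏ i, Nat.card (P i : Subgroup (G i)) := by
      rw [← Nat.card_pi]
      exact Nat.card_congr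
        { toFun := fun x i => ⟨x.1 i, x.2 i (Set.mem_univ i)⟩
          invFun := fun x => ⟨fun i => x i, fun i _ => (x i).2⟩
          left_inv := fun _ => rfl
          right_inv := fun _ => rfl }
    rw [h1, Nat.card_pi, ← Finset.prod_mul_distrib]
    exact Finset.prod_congr rfl fun i _ => (Subgroup.card_mul_index _).symm
  have hi : S.index = ∏ i, (P i : Subgroup (G i)).index := by
    have h1 := Subgroup.card_mul_index S
    rw [hc] at h1
    exact Nat.eq_of_mul_eq_mul_left Nat.card_pos h1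
  have hi2 : ¬ 2 ∣ S.index := by
    rw [hi, Nat.prime_two.prime.dvd_finsetProd_iff]
    push Not
    exact fun i _ => (P i).not_dvd_index
  refine elem_of_sylow (hS.toSylow hi2) ?_
  change Lin2 S
  intro f x
  -- `x` is the product of its components
  let j : ∀ i, (P i : Subgroup (G i)) →* S := fun i =>
    { toFun := fun y => ⟨Pi.mulSingle i (y : G i), fun k _ => by
        by_cases hk : k = i
        · subst hk; rw [Pi.mulSingle_eq_same]; exact y.2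
        · rw [Pi.mulSingle_eq_of_ne hk]; exact (P k : Subgroup (G k)).one_mem⟩
      map_one' := Subtype.ext (Pi.mulSingle_one i)
      map_mul' := fun a b => Subtype.ext (Pi.mulSingle_mul i _ _) }
  let K : Subgroup S := (f ^ 2).ker
  have h1 : ∀ i (y : (P i : Subgroup (G i))), j i y ∈ K := by
    intro i y
    rw [MonoidHom.mem_ker, MonoidHom.pow_apply]
    exact h i (P i) (f.comp (j i)) y
  have h2 : ∀ (s : Finset ι) (x : ∀ i, G i) (hx : x ∈ S), (∀ i ∉ s, x i = 1) → (⟨x, hx⟩ : S) ∈ K := by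
    intro s
    induction s using Finset.induction_on with
    | empty =>
      intro x hx h0
      have : (⟨x, hx⟩ : S) = 1 := Subtype.ext (funext fun i => h0 i (by simp))
      rw [this]; exact one_mem _
    | insert a s ha ih =>
      intro x hx h0
      have hxa : x a ∈ (P a : Subgroup (G a)) := hx a (Set.mem_univ a)
      have hx' : (Pi.mulSingle a (x a))⁻¹ * x ∈ S := mul_mem (inv_mem (j a ⟨x a, hxa⟩).2) hx
      have h3 := ih _ hx' (by
        intro i hi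
        by_cases hia : i = a
        · subst hia; simp
        · rw [Pi.mul_apply, Pi.inv_apply, Pi.mulSingle_eq_of_ne hia, h0 i (by simp [hi, hia])]
          simp)
      have h4 : (⟨x, hx⟩ : S) = j a ⟨x a, hxa⟩ * ⟨_, hx'⟩ := Subtype.ext (by
        show x = Pi.mulSingle a (x a) * ((Pi.mulSingle a (x a))⁻¹ * x)
        rw [mul_inv_cancel_left])
      rw [h4]
      exact mul_mem (h1 a _) h3
  have h5 := h2 Finset.univ x.1 x.2 (fun i hi => absurd (Finset.mem_univ i) hi)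
  have h6 : (f ^ 2) x = 1 := h5
  rwa [MonoidHom.pow_apply] at h6

/-- `Elem` of the join of commuting images. -/
theorem elem_iSup (φ : ∀ i, G i →* Y) (hc : Pairwise fun i j => ∀ x y, Commute (φ i x) (φ j y))
    (h : ∀ i, Elem (G i)) : Elem (⨆ i, (φ i).range : Subgroup Y) := by
  have := Fintype.ofFinite ι
  have h1 := MonoidHom.noncommPiCoprod_range (ϕ := φ) (hcomm := hc)
  rw [← h1]
  exact (elem_pi h).of_surjective (MonoidHom.noncommPiCoprod φ hc).rangeRestrict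
    (MonoidHom.rangeRestrict_surjective _)

/-- `φ i u` is central in `⨆ i, (φ i).range`. -/
theorem kil_iSup (φ : ∀ i, G i →* Y) (hc : Pairwise fun i j => ∀ x y, Commute (φ i x) (φ j y))
    {i : ι} {u : G i} (hu : Cen2 (G i) u) :
    ∃ h : φ i u ∈ (⨆ i, (φ i).range : Subgroup Y), Kil (⨆ i, (φ i).range : Subgroup Y) ⟨φ i u, h⟩ := by
  have hle : (φ i).range ≤ ⨆ i, (φ i).range := le_iSup (fun i => (φ i).range) i
  have hm : φ i u ∈ (⨆ i, (φ i).range : Subgroup Y) := hle ⟨u, rfl⟩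
  refine ⟨hm, Cen2.kil ⟨?_, ?_⟩⟩
  · rw [Subgroup.mem_center_iff]
    rintro ⟨y, hy⟩
    apply Subtype.ext
    show y * φ i u = φ i u * y
    have h1 : (⨆ i, (φ i).range : Subgroup Y) ≤ Subgroup.centralizer {φ i u} := by
      refine iSup_le ?_
      rintro k _ ⟨x, rfl⟩
      rw [Subgroup.mem_centralizer_singleton_iff]
      by_cases hk : k = i
      · subst hk
        rw [← map_mul, ← map_mul, Subgroup.mem_center_iff.1 hu.1 x]
      · exact (hc hk x u).eq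
    have h2 := h1 hy
    rw [Subgroup.mem_centralizer_singleton_iff] at h2
    exact h2
  · obtain ⟨-, P, hP, hu⟩ := hu
    let ψ : G i →* (⨆ i, (φ i).range : Subgroup Y) := (Subgroup.inclusion hle).comp (φ i).rangeRestrict
    refine ⟨P.map ψ, hP.map ψ, ?_⟩
    have h3 : ψ u ∈ (⁅P, P⁆).map ψ := ⟨u, hu, rfl⟩
    rwa [Subgroup.map_commutator] at h3

/-- **The frame lemma**, for frames given by commuting homomorphisms `φ i : G i →* Y`, with central `u i ∈ G i`. -/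
theorem lin_of_homs (φ : ∀ i, G i →* Y) (hc : Pairwise fun i j => ∀ x y, Commute (φ i x) (φ j y))
    (hel : ∀ i, Elem (G i)) (u : ∀ i, G i) (hu : ∀ i, Cen2 (G i) (u i))
    {T H : Subgroup Y} (E : Set Y)
    (hperm : ∀ h ∈ H, ∀ i, ∃ j, ∀ x, h * φ i x * h⁻¹ ∈ (φ j).range)
    (hTH : T ≤ H) (hTn : ∀ h ∈ H, ∀ t ∈ T, h * t * h⁻¹ ∈ T) (h2 : ∃ a, T.relIndex H = 2 ^ a)
    (hUT : ∀ t ∈ T, ∀ i, t * φ i (u i) = φ i (u i) * t)
    (hE : ∀ e ∈ E, e ∈ H ∧ (e ^ 2 ∈ Subgroup.closure (Set.range fun i => φ i (u i)) ∨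
      (∃ i, e ∈ (φ i).range) ∧ ∃ k, e ^ 2 ^ k = 1))
    (hgen : H ≤ T ⊔ Subgroup.closure E)
    {Q : Subgroup Y} (hQ2 : IsPGroup 2 Q) (hQM : Q ≤ (⨆ i, (φ i).range) ⊔ H)
    (hQ : Odd (Q.relIndex ((⨆ i, (φ i).range) ⊔ H))) (hR : Odd ((Q ⊓ H).relIndex H))
    (f : Q →* ℂˣ) (hf : ∀ x (hx : x ∈ Q), x ∈ T → f ⟨x, hx⟩ ^ 2 = 1) (x : Q) : f x ^ 2 = 1 := by
  refine lin_of_frame (U := Subgroup.closure (Set.range fun i => φ i (u i))) E ?_ hTH hTn h2 (elem_iSup φ hc hel)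
    ?_ ?_ ?_ hgen hQ2 hQM hQ hR f hf x
  · intro h hh
    have h3 : (⨆ i, (φ i).range : Subgroup Y) ≤ (⨆ i, (φ i).range : Subgroup Y).comap (MulAut.conj h).toMonoidHom := by
      refine iSup_le ?_
      rintro i _ ⟨x, rfl⟩
      obtain ⟨j, hj⟩ := hperm h hh i
      exact (le_iSup (fun i => (φ i).range) j) (hj x)
    exact fun x hx => h3 hx
  · intro v hv
    have h3 : Subgroup.closure (Set.range fun i => φ i (u i)) ≤
        (kilSub (⨆ i, (φ i).range : Subgroup Y)).map (⨆ i, (φ i).range : Subgroup Y).subtype := by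
      rw [Subgroup.closure_le]
      rintro _ ⟨i, rfl⟩
      obtain ⟨h, hk⟩ := kil_iSup φ hc (hu i)
      exact ⟨⟨_, h⟩, hk, rfl⟩
    obtain ⟨⟨y, hy⟩, hk, rfl⟩ := h3 hv
    exact ⟨hy, hk⟩
  · intro t ht v hv
    have h3 : Subgroup.closure (Set.range fun i => φ i (u i)) ≤ Subgroup.centralizer {t} := by
      rw [Subgroup.closure_le]
      rintro _ ⟨i, rfl⟩
      exact Subgroup.mem_centralizer_singleton_iff.2 (hUT t ht i).symm
    exact (Subgroup.mem_centralizer_singleton_iff.1 (h3 hv)).symm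
  · intro e he
    obtain ⟨h3, h4⟩ := hE e he
    refine ⟨h3, ?_⟩
    rcases h4 with h4 | ⟨⟨i, hi⟩, hk⟩
    · exact Or.inl h4
    · exact Or.inr ⟨(le_iSup (fun i => (φ i).range) i) hi, hk⟩

/-! #### the index of `H` in `N₁ H` -/

omit [Finite Y] in
theorem normalizes_iSup {φ : ∀ i, G i →* Y} {H : Subgroup Y}
    (hperm : ∀ h ∈ H, ∀ i, ∃ j, ∀ x, h * φ i x * h⁻¹ ∈ (φ j).range) :
    ∀ h ∈ H, ∀ x ∈ (⨆ i, (φ i).range : Subgroup Y), h * x * h⁻¹ ∈ (⨆ i, (φ i).range : Subgroup Y) := by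
  intro h hh
  have h3 : (⨆ i, (φ i).range : Subgroup Y) ≤ (⨆ i, (φ i).range : Subgroup Y).comap (MulAut.conj h).toMonoidHom := by
    refine iSup_le ?_
    rintro i _ ⟨x, rfl⟩
    obtain ⟨j, hj⟩ := hperm h hh i
    exact (le_iSup (fun i => (φ i).range) j) (hj x)
  exact fun x hx => h3 hx

/-- `|N H : H| = |N : N ∩ H|`. -/
theorem relIndex_sup_eq {N H : Subgroup Y} (hn : ∀ h ∈ H, ∀ x ∈ N, h * x * h⁻¹ ∈ N) :
    H.relIndex (N ⊔ H) = H.relIndex N := by
  set M : Subgroup Y := N ⊔ H with hM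
  have hNM : N ≤ M := le_sup_left
  have hHM : H ≤ M := le_sup_right
  have hnorm : ∀ m ∈ M, ∀ x ∈ N, m * x * m⁻¹ ∈ N := by
    have h3 : M ≤ Subgroup.normalizer (N : Set Y) := by
      refine sup_le Subgroup.le_normalizer ?_
      intro h hh
      rw [Subgroup.mem_normalizer_iff]
      refine fun y => ⟨fun hy => hn h hh y hy, fun hy => ?_⟩
      have := hn h⁻¹ (inv_mem hh) _ hy
      rwa [inv_inv, show h⁻¹ * (h * y * h⁻¹) * h = y by group] at this
    intro m hm y hy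
    exact (Subgroup.mem_normalizer_iff.1 (h3 hm) y).1 hy
  have : (N.subgroupOf M).Normal := ⟨fun y hy g => by
    rw [Subgroup.mem_subgroupOf] at hy ⊢
    exact hnorm g g.2 y hy⟩
  have h1 : (H ⊓ N).relIndex N * N.relIndex M = (H ⊓ N).relIndex M :=
    Subgroup.relIndex_mul_relIndex _ _ _ inf_le_right hNM
  have h2 : (H ⊓ N).relIndex H * H.relIndex M = (H ⊓ N).relIndex M :=
    Subgroup.relIndex_mul_relIndex _ _ _ inf_le_left hHM
  have h3 : N.relIndex M = N.relIndex H := by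
    have e1 : ∀ A ≤ M, ∀ B ≤ M, (A.subgroupOf M).relIndex (B.subgroupOf M) = A.relIndex B := fun A _ B hB =>
      Subgroup.relIndex_subgroupOf hB
    have e2 : H.subgroupOf M ⊔ N.subgroupOf M = ⊤ := by
      rw [← Subgroup.subgroupOf_sup hHM hNM, sup_comm, ← hM, Subgroup.subgroupOf_self]
    rw [← e1 N hNM H hHM, ← e1 N hNM M le_rfl, Subgroup.subgroupOf_self, ← e2, Subgroup.relIndex_sup_right]
  rw [Subgroup.inf_relIndex_right, h3] at h1
  rw [Subgroup.inf_relIndex_left] at h2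
  have h4 : N.relIndex H ≠ 0 := Subgroup.index_ne_zero_of_finite
  apply Nat.eq_of_mul_eq_mul_left (Nat.pos_of_ne_zero h4)
  rw [h2, ← h1, mul_comm]

/-- `|N₁ H : H| = ∏ |G i : K i|` if `∏ φ i (x i) ∈ H ↔ ∀ i, x i ∈ K i`. -/
theorem relIndex_homs [Fintype ι] (φ : ∀ i, G i →* Y) (hc : Pairwise fun i j => ∀ x y, Commute (φ i x) (φ j y))
    {H : Subgroup Y} (hperm : ∀ h ∈ H, ∀ i, ∃ j, ∀ x, h * φ i x * h⁻¹ ∈ (φ j).range) (K : ∀ i, Subgroup (G i))
    (hK : ∀ x, MonoidHom.noncommPiCoprod φ hc x ∈ H ↔ ∀ i, x i ∈ K i) :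
    H.relIndex ((⨆ i, (φ i).range) ⊔ H) = ∏ i, (K i).index := by
  rw [relIndex_sup_eq (normalizes_iSup hperm), ← MonoidHom.noncommPiCoprod_range (ϕ := φ) (hcomm := hc),
    ← Subgroup.index_comap]
  have h1 : H.comap (MonoidHom.noncommPiCoprod φ hc) = Subgroup.pi Set.univ K := by
    ext x
    rw [Subgroup.mem_comap, hK, Subgroup.mem_pi]
    simp
  rw [h1]
  have h2 : Nat.card (Subgroup.pi Set.univ K) = ∏ i, Nat.card (K i) := by
    rw [← Nat.card_pi]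
    exact Nat.card_congr
      { toFun := fun x i => ⟨x.1 i, x.2 i (Set.mem_univ i)⟩
        invFun := fun x => ⟨fun i => x i, fun i _ => (x i).2⟩
        left_inv := fun _ => rfl
        right_inv := fun _ => rfl }
  have h3 := Subgroup.card_mul_index (Subgroup.pi Set.univ K)
  have h4 : Nat.card (∀ i, G i) = Nat.card (Subgroup.pi Set.univ K) * ∏ i, (K i).index := by
    rw [h2, Nat.card_pi, ← Finset.prod_mul_distrib]
    exact Finset.prod_congr rfl fun i _ => (Subgroup.card_mul_index _).symm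
  rw [h4] at h3
  exact Nat.eq_of_mul_eq_mul_left Nat.card_pos h3

omit [∀ i, Finite (G i)] [Finite ι] in
/-- A subgroup `M ≥ H` with `|M : H| = n` and `|Y|_2 ≤ (|H| n)_2` has odd index. -/
theorem odd_index_of_padic {H M : Subgroup Y} (hHM : H ≤ M)
    (hnum : padicValNat 2 (Nat.card Y) ≤ padicValNat 2 (Nat.card H * H.relIndex M)) : Odd M.index := by
  have h0 : H.relIndex M ≠ 0 := Subgroup.index_ne_zero_of_finite
  have h1 : Nat.card M = Nat.card H * H.relIndex M := by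
    have h2 := Subgroup.card_mul_index (H.subgroupOf M)
    rw [← h2]
    congr 1
    exact Nat.card_congr (Subgroup.subgroupOfEquivOfLe hHM).toEquiv
  have h3 := Subgroup.card_mul_index M
  rw [← h1, ← h3, padicValNat.mul Nat.card_pos.ne' M.index_ne_zero_of_finite] at hnum
  have h4 : padicValNat 2 M.index = 0 := by omega
  rw [odd_iff_not_two_dvd]
  intro h5
  have := one_le_padicValNat_of_dvd M.index_ne_zero_of_finite h5
  omega

/-! #### `f ^ 2 = 1` on the torus -/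

omit [∀ i, Finite (G i)] [Finite ι] in
/-- If an element of `H` inverts the abelian group `T`, then linear characters of `Q` have order at most two on
`Q ∩ T`. -/
theorem sq_torus_of_inv {T H Q : Subgroup Y} (hTH : T ≤ H) (hTn : ∀ h ∈ H, ∀ t ∈ T, h * t * h⁻¹ ∈ T)
    (h2 : ∃ a, T.relIndex H = 2 ^ a) (hTc : ∀ s ∈ T, ∀ t ∈ T, s * t = t * s) {w : Y} (hw : w ∈ H)
    (hinv : ∀ t ∈ T, w * t * w⁻¹ = t⁻¹) (hR : Odd ((Q ⊓ H).relIndex H)) (f : Q →* ℂˣ) (x : Y) (hx : x ∈ Q)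
    (hxT : x ∈ T) : f ⟨x, hx⟩ ^ 2 = 1 := by
  obtain ⟨r, hr, t, ht, rfl⟩ := exists_mul hTH inf_le_right hTn h2 hR hw
  have h3 : r * x * r⁻¹ = x⁻¹ := by
    have h4 := hinv _ (show t⁻¹ * x * t ∈ T from mul_mem (mul_mem (inv_mem ht) hxT) ht)
    have h5 : t⁻¹ * x * t = x := by
      rw [mul_assoc, hTc x hxT t ht, inv_mul_cancel_left]
    rw [h5] at h4
    rw [← h4]
    have h6 : r * t * x * (r * t)⁻¹ = r * (t * x * t⁻¹) * r⁻¹ := by group
    rw [h6, hTc t ht x hxT, mul_inv_cancel_right]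
  have h4 : (⟨r, hr.1⟩ : Q) * ⟨x, hx⟩ * (⟨r, hr.1⟩ : Q)⁻¹ = (⟨x, hx⟩)⁻¹ := Subtype.ext h3
  have h5 := congrArg f h4
  rw [map_mul, map_mul, map_inv, map_inv, mul_comm (f ⟨r, hr.1⟩), mul_inv_cancel_right] at h5
  rw [pow_two]
  nth_rewrite 2 [h5]
  exact mul_inv_cancel _

/-- **`Elem Y` from a frame.** -/
theorem elem_of_homs (φ : ∀ i, G i →* Y) (hc : Pairwise fun i j => ∀ x y, Commute (φ i x) (φ j y))
    (hel : ∀ i, Elem (G i)) (u : ∀ i, G i) (hu : ∀ i, Cen2 (G i) (u i))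
    {T H : Subgroup Y} (E : Set Y)
    (hperm : ∀ h ∈ H, ∀ i, ∃ j, ∀ x, h * φ i x * h⁻¹ ∈ (φ j).range)
    (hTH : T ≤ H) (hTn : ∀ h ∈ H, ∀ t ∈ T, h * t * h⁻¹ ∈ T) (h2 : ∃ a, T.relIndex H = 2 ^ a)
    (hUT : ∀ t ∈ T, ∀ i, t * φ i (u i) = φ i (u i) * t)
    (hE : ∀ e ∈ E, e ∈ H ∧ (e ^ 2 ∈ Subgroup.closure (Set.range fun i => φ i (u i)) ∨
      (∃ i, e ∈ (φ i).range) ∧ ∃ k, e ^ 2 ^ k = 1))
    (hgen : H ≤ T ⊔ Subgroup.closure E) (hodd : Odd ((⨆ i, (φ i).range) ⊔ H : Subgroup Y).index)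
    (hf : ∀ Q : Subgroup Y, IsPGroup 2 Q → Odd ((Q ⊓ H).relIndex H) →
      ∀ (f : Q →* ℂˣ) (x : Y) (hx : x ∈ Q), x ∈ T → f ⟨x, hx⟩ ^ 2 = 1) : Elem Y := by
  obtain ⟨Q, hQM, hR⟩ := exists_sylow_of_le (H := H) le_sup_right hodd
  refine elem_of_sylow Q fun f x => ?_
  refine lin_of_homs φ hc hel u hu E hperm hTH hTn h2 hUT hE hgen Q.2 hQM ?_ hR f
    (fun x hx hxT => hf _ Q.2 hR f x hx hxT) x
  exact Odd.of_dvd_nat (odd_iff_not_two_dvd.2 Q.not_dvd_index) (Subgroup.relIndex_dvd_index_of_le hQM)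

end Homs

end Cfsg.Agent.H584.Fr
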